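import Cfsg.Agent.H876.OT.NsPm
import Cfsg.Agent.H428.OT.SubA2
import Cfsg.Agent.H194.OT.NN
import Cfsg.Agent.H501.OT.OmExr

/-!
# S2539, part 5: `ns` for a short `A₂` (helper103)
-/

set_option autoImplicit false

namespace Cfsg.Agent.H103.OT

open Subgroup Cfsg Cfsg.Lie Cfsg.Agent.H412.OT Cfsg.Agent.H186.OT Cfsg.Agent.H274.OT
open Cfsg.Agent.ChevalleyStructure Cfsg.Agent.ChevalleyStructure.Elts
open Cfsg.Agent.ChevalleyStructure.RootCombBase (allLt allLt_spec)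
open Cfsg.Agent.H460.OT.Short (pT pF lT lF chkP_F4 chkL_F4 p_spec l_spec bq inF nF)

universe u

/-- `3`-shifted value odd means even value -/
def evB (n : ℕ) : Bool := Nat.beq (Nat.mod n 2) 1

def c3 : Bool := allLt (fun a => or (lT lF a) (allLt (fun c => or (lT lF c) (or (not (Nat.beq (pT pF 48 a c) 4))
  (allLt (fun r => or (not (evB (pT pF 48 r a))) (or (not (evB (pT pF 48 r c))) (and (lT lF r)
    (and (Nat.beq (pT pF 48 r a) 3) (Nat.beq (pT pF 48 r c) 3))))) 48))) 48)) 48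

theorem c3_ok : c3 = true := by decide +kernel

theorem evB_of {n : ℕ} {k : ℤ} (h : (n : ℤ) = k + 3) (hk : Even k) : evB n = true := by
  rw [evB, bq]
  obtain ⟨m, hm⟩ := hk
  show n % 2 = 1
  omega

/-- roots with even Cartan numbers on a short `A₂` are long and orthogonal to it -/
theorem long_of_even {a c r : ℕ} (ha : a < 48) (hc : c < 48) (hr : r < 48) (h1 : ¬ IsLong chevF4 a)
    (h2 : ¬ IsLong chevF4 c) (e : pr chevF4 a c = 1) (h3 : Even (pr chevF4 r a)) (h4 : Even (pr chevF4 r c)) :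
    IsLong chevF4 r ∧ pr chevF4 r a = 0 ∧ pr chevF4 r c = 0 := by
  have h := allLt_spec c3_ok a ha
  simp only [Bool.or_eq_true, l_spec chkL_F4 ha] at h
  have h := allLt_spec (h.resolve_left h1) c hc
  simp only [Bool.or_eq_true, l_spec chkL_F4 hc, Bool.not_eq_true', ← Bool.not_eq_true, bq] at h
  have e0 := p_spec chkP_F4 ha hc
  have e1 := p_spec chkP_F4 hr ha
  have e2 := p_spec chkP_F4 hr hc
  have h := (h.resolve_left h2).resolve_left (fun hn => hn (by omega))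
  have h := allLt_spec h r hr
  simp only [Bool.or_eq_true, Bool.and_eq_true, l_spec chkL_F4 hr, Bool.not_eq_true', ← Bool.not_eq_true, bq] at h
  have h := (h.resolve_left (fun hn => hn (evB_of e1 h3))).resolve_left (fun hn => hn (evB_of e2 h4))
  obtain ⟨h5, h6, h7⟩ := h
  exact ⟨h5, by omega, by omega⟩

variable {K : Type u} [Field K] [Fintype K] {p : ℕ} [Fact p.Prime] [CharP K p]

omit [Fact p.Prime] in
/-- **(N2)** -/
theorem ns_A2 (h : Hyp K p chevF4) {F : Subgroup (GL chevF4.Idx K)} (hF : MinBad chevF4 K F)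
    (hcY : centralizer (Y0 chevF4 K F : Set (GL chevF4.Idx K)) ⊓ F ≤ DF chevF4 K F ⊔ chevF4.diagonalSubgroup K)
    {a c d : ℕ} (e1 : pr chevF4 a c = 1) (hd : chevF4.chainRoot (chevF4.neg a) c 1 = some d)
    (hS : SF chevF4 K F = {a, chevF4.neg a, c, chevF4.neg c, d, chevF4.neg d})
    (hsh : ∀ r ∈ SF chevF4 K F, ¬ IsLong chevF4 r) (hle : F ≤ GS chevF4 K (Psi chevF4 K F))
    (hQ : ∀ x ∈ DF chevF4 K F ⊔ chevF4.diagonalSubgroup K, (∀ d ∈ DF chevF4 K F, x ^ 2 * d = d * x ^ 2) →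
      ∃ d ∈ DF chevF4 K F, d * x * d⁻¹ ∈ chevF4.diagonalSubgroup K)
    (TI : ∀ t ∈ chevF4.diagonalSubgroup K, ∀ f ∈ F, f * t * f⁻¹ ∈ chevF4.diagonalSubgroup K → t ∉ Zf F →
      f ∈ MF chevF4 K F)
    {γ : Kˣ} (hγ : orderOf γ = Fintype.card K - 1) {g : GL chevF4.Idx K} (hg : g ∈ F) (hgM : g ∉ MF chevF4 K F)
    {r : ℕ} (hr : r < chevF4.nroots)
    (hx : g * hG h.inList r (γ : K) * g⁻¹ ∈ MF chevF4 K F) : (hG h.inList r (γ : K)) ^ 2 ∈ Zf F := by
  have hD := h.inList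
  have hq := h.card
  have hZ := H501.OT.Zf_le_tor h hF
  have hsub := H194.OT.SF_sub_Psi (F := F) hD hZ
  have haS : a ∈ SF chevF4 K F := by rw [hS]; simp
  have hcS : c ∈ SF chevF4 K F := by rw [hS]; simp
  -- elements of `T` with a conjugate in `D T` of order 2 modulo `C(D)` are central
  have fin : ∀ t ∈ chevF4.diagonalSubgroup K, g * t * g⁻¹ ∈ DF chevF4 K F ⊔ chevF4.diagonalSubgroup K →
      (∀ d ∈ DF chevF4 K F, (g * t * g⁻¹) ^ 2 * d = d * (g * t * g⁻¹) ^ 2) → t ∈ Zf F := by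
    intro t ht hgt hc
    obtain ⟨d, hd, h2⟩ := hQ _ hgt hc
    by_contra h4
    have h5 : d * g * t * (d * g)⁻¹ ∈ chevF4.diagonalSubgroup K := by
      have e : d * g * t * (d * g)⁻¹ = d * (g * t * g⁻¹) * d⁻¹ := by group
      rw [e]
      exact h2
    have h6 := TI t ht (d * g) (mul_mem (DF_le F hd) hg) h5 h4
    apply hgM
    have h7 := mul_mem (inv_mem (DF_le_MF F hd)) h6
    rwa [inv_mul_cancel_left] at h7
  have hw : ∀ x < chevF4.nroots, |pr chevF4 r x| ≤ 2 := fun x hx => H428.OT.abs_pr_le_two (by simp) hr hx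
  have h1 := comm_Y0_of_le_MF h hF.le hr hw (H876.OT.Ns.Hr_conj_le hD hr hγ hx)
  have hDT : ∀ c : K, c ≠ 0 → g * hG hD r c * g⁻¹ ∈ DF chevF4 K F ⊔ chevF4.diagonalSubgroup K := by
    intro c hc
    refine hcY (mem_inf.2 ⟨?_, mul_mem (mul_mem hg (hF.tor (hG_mem hD hr hc))) (inv_mem hg)⟩)
    exact h1 ⟨_, hG_mem_Hr hD r hc, rfl⟩
  -- the involution
  have hm1 : (-1 : K) ≠ 0 := neg_ne_zero.2 one_ne_zero
  have hne := H501.OT.neg_one_ne (K := K) h (Or.inl rfl)
  have hz : hG hD r (-1 : K) ∈ Zf F := by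
    refine fin _ (hG_mem hD hr hm1) (hDT _ hm1) fun d hd => ?_
    rw [conj_pow, H501.OT.hG_neg_one_sq hD hr, mul_one, mul_inv_cancel, one_mul, mul_one]
  have hev : ∀ b ∈ Psi chevF4 K F, Even (pr chevF4 r b) := by
    intro b hb
    have h2 := hb.2 _ hz
    rw [chi_hG hD hr hb.1 hm1] at h2
    by_contra h3
    rw [Int.not_even_iff_odd] at h3
    rw [h3.neg_one_zpow] at h2
    exact hne h2
  obtain ⟨hl, h5, h6⟩ := long_of_even (nF ▸ haS.1) (nF ▸ hcS.1) (nF ▸ hr) (hsh a haS) (hsh c hcS) e1 (hev a (hsub haS))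
    (hev c (hsub hcS))
  have hrS : r ∉ SF chevF4 K F := fun h2 => hsh r h2 hl
  have hrS' : chevF4.neg r ∉ SF chevF4 K F := by
    intro h2
    apply hrS
    have hrr := H428.OT.neg_neg' inF hr
    have nn : ∀ x ∈ SF chevF4 K F, chevF4.neg (chevF4.neg x) = x := fun x hx => H428.OT.neg_neg' inF hx.1
    have hdS : d ∈ SF chevF4 K F := by rw [hS]; simp
    have h3 : chevF4.neg r = a ∨ chevF4.neg r = chevF4.neg a ∨ chevF4.neg r = c ∨ chevF4.neg r = chevF4.neg c ∨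
        chevF4.neg r = d ∨ chevF4.neg r = chevF4.neg d := by
      rw [hS] at h2
      simpa only [Set.mem_insert_iff, Set.mem_singleton_iff] using h2
    rw [hS]
    simp only [Set.mem_insert_iff, Set.mem_singleton_iff]
    rcases h3 with h3 | h3 | h3 | h3 | h3 | h3
    · exact Or.inr (Or.inl (by rw [← hrr, h3]))
    · exact Or.inl (by rw [← hrr, h3, nn a haS])
    · exact Or.inr (Or.inr (Or.inr (Or.inl (by rw [← hrr, h3]))))
    · exact Or.inr (Or.inr (Or.inl (by rw [← hrr, h3, nn c hcS])))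
    · exact Or.inr (Or.inr (Or.inr (Or.inr (Or.inr (by rw [← hrr, h3])))))
    · exact Or.inr (Or.inr (Or.inr (Or.inr (Or.inl (by rw [← hrr, h3, nn d hdS])))))
  have hiso : ∀ b ∈ Psi chevF4 K F, b ≠ r → b ≠ chevF4.neg r → pr chevF4 r b = 0 := by
    intro b hb h2 h3
    have h4 := abs_le.1 (hl.2 b hb.1 h2 h3)
    obtain ⟨k, hk⟩ := hev b hb
    omega
  have hcen : hG hD r (γ : K) ∈ Zf F := by
    refine fin _ (hG_mem hD hr γ.ne_zero) (hDT _ γ.ne_zero) fun d hd => ?_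
    have h2 := H194.OT.iso_comm hD hZ hle hr hrS hrS' hiso (γ : K) γ.ne_zero hg hd
    rw [pow_two, mul_assoc, h2, ← mul_assoc, h2, mul_assoc]
  exact pow_mem hcen 2

end Cfsg.Agent.H103.OT
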