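import Cfsg.Agent.H103.OT.Pm
import Cfsg.Agent.H428.OT.SubA2
import Cfsg.Agent.H103.OT.NsTwo

/-!
# S2539, part 5: `S_F` a short `A₂` (helper103)

`short_A2` : there is no least bad group in `F₄` with `S_F` a short `A₂`.
-/

set_option autoImplicit false

namespace Cfsg.Agent.H103.OT

open Subgroup Cfsg Cfsg.Lie Cfsg.Agent.H412.OT Cfsg.Agent.H186.OT Cfsg.Agent.H274.OT
open Cfsg.Agent.ChevalleyStructure Cfsg.Agent.ChevalleyStructure.Elts

universe u

variable {K : Type u} [Field K] [Fintype K] {p : ℕ} [Fact p.Prime] [CharP K p]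

/-- **`S_F` a short `A₂`** -/
theorem short_A2' (hgold : Gold.{u}) (h : Hyp K p chevF4) {F : Subgroup (GL chevF4.Idx K)}
    (hF : MinBad chevF4 K F) {a c d : ℕ} (e1 : pr chevF4 a c = 1) (e2 : pr chevF4 c a = 1)
    (hd : chevF4.chainRoot (chevF4.neg a) c 1 = some d)
    (hS : SF chevF4 K F = {a, chevF4.neg a, c, chevF4.neg c, d, chevF4.neg d})
    (hsh : ∀ r ∈ SF chevF4 K F, ¬ IsLong chevF4 r) : False := by
  have hD : chevF4 = chevF4 ∨ chevF4 = chevG2 := Or.inl rfl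
  have S : SubF chevF4 K F := H428.OT.subA2 h hF hsh e1 hd hS
  have Fc := S.facts h hF
  have hle := Fc.le_GS h hD hF
  have hZ := zf_le h hF
  obtain ⟨γ, hγ⟩ := exists_gen K
  have haS : a ∈ SF chevF4 K F := by rw [hS]; simp
  have hcS : c ∈ SF chevF4 K F := by rw [hS]; simp
  have hcS' : chevF4.neg c ∈ SF chevF4 K F := by rw [hS]; simp
  have hsub := H194.OT.SF_sub_Psi h.inList hZ
  have hca : c ≠ a := by
    rintro rfl
    rw [H428.OT.pr_self h.inList hcS.1] at e1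
    norm_num at e1
  have hcna : c ≠ chevF4.neg a := by
    rintro rfl
    rw [H428.OT.pr_neg h.inList haS.1] at e1
    norm_num at e1
  obtain ⟨x, hx, hxS⟩ := H501.OT.exists_psi_not_SF h hF hle
  have B : FactsB chevF4 K h.inList F γ (fun r => r < chevF4.nroots) := {
    lt := fun r hr => hr
    exr := by
      obtain ⟨r, hr, h5, h6⟩ := H501.OT.exr_A2 h e1 e2 hd hS hx hxS hγ
      exact ⟨r, hr, h5, h6⟩
    ns := fun hti g hg hgM r hr hx => ns_A2 h hF Fc.cYF e1 hd hS hsh hle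
      (H428.OT.hQ_A2 h hsh e1 hd hS) hti hγ hg hgM hr hx
    geo := by
      intro x hx hxN hx2
      rcases H65.OT.geo_F4 h.card hF.tor hF.le (fun t ht hc => mem_Zf_of h.inList hF.tor hle ht hc) h.inList hγ hx hxN
          hx2 hZ with h4 | ⟨r, hr, h4, h5⟩
      · exact Or.inl h4
      · exact Or.inr ⟨r, hr, h4, h5⟩
    om := H501.OT.om h hD (hsub haS) (hsub hcS) (hsh a haS) hca hcna (by rw [e1]; norm_num) }
  obtain ⟨v, hv, hv2, hvT⟩ := ends_A2 h haS hcS hcS' (by rw [e2]; exact odd_one)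
  obtain ⟨y, hy, -, hy2, hy3⟩ := H298.OT.hY_A2 h haS.1 hcS.1 (hsh a haS) (hsh c hcS) e1 hd hS hx hxS
  exact B.end_gold h hD hF S hgold ⟨y, hy, hy2, hy3⟩ hv (hv2 ▸ one_mem _) hvT

/-- **`S_F` a short `A₂`**, the form of the case distinction -/
theorem short_A2 {D : ChevalleyDatum} (hgold : Gold.{u}) (h : Hyp K p D) (hD : D = chevF4)
    (F : Subgroup (GL D.Idx K)) (hF : MinBad D K F) (a c d : ℕ) (e1 : pr D a c = 1) (e2 : pr D c a = 1)
    (hd : D.chainRoot (D.neg a) c 1 = some d) (hS : SF D K F = {a, D.neg a, c, D.neg c, d, D.neg d})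
    (hsh : ∀ r ∈ SF D K F, ¬ IsLong D r) : False := by
  subst hD
  exact short_A2' hgold h hF e1 e2 hd hS hsh

end Cfsg.Agent.H103.OT
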